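import Mathlib
import Cfsg.Agent.CharDeep.DegreeBound

/-!
# S4816, three orbits of characters (helper548)

`three_of_orders`: `E` normal in `G`, `N ≤ E` central in `G`, `φ` a linear character of `N`; three elements of `E` of distinct orders
prime to `|N|` give three irreducible characters of `E` over `φ` which are pairwise not conjugate in `G`.
-/

set_option autoImplicit false
set_option linter.unusedSectionVars false

namespace Cfsg.Agent.H548.RIM

open Cfsg Cfsg.Agent.Characters.Core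
open scoped ComplexConjugate commutatorElement

universe u

section generic

variable {X : Type*} [Group X] [Fintype X] {N : Subgroup X} {φ : N →* ℂˣ}

/-- functions over `φ` are orthogonal to the irreducible characters which are not over `φ` -/
theorem inner_eq_zero (hN : N ≤ Subgroup.center X) {f : X → ℂ} (hmul : ∀ (n : N) (g : X), f (n * g) = φ n * f g) {ψ : X → ℂ}
    (hψ : IsIrrCharacter X ψ) (hnot : ¬ ∀ n : N, ψ n = ψ 1 * φ n) : classInner f ψ = 0 := by
  classical
  push Not at hnot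
  obtain ⟨n, hn⟩ := hnot
  obtain ⟨w, -, hw⟩ := Cfsg.Agent.CharDeep.DegreeBound.exists_omega hψ (hN n.2)
  have h0 : ψ n = w * ψ 1 := by
    have := hw 1
    simpa using this
  have hwn : w ≠ φ n := by
    intro h
    apply hn
    rw [h0, h, mul_comm]
  have h1 : ∑ g : X, f g * conj (ψ g) = (φ n : ℂ) * conj w * ∑ g : X, f g * conj (ψ g) := by
    conv_lhs => rw [← Fintype.sum_equiv (Equiv.mulLeft (n : X))
      (fun g => f (n * g) * conj (ψ (n * g))) (fun g => f g * conj (ψ g)) (fun g => rfl)]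
    rw [Finset.mul_sum]
    refine Finset.sum_congr rfl fun g _ => ?_
    have h2 : ψ ((n : X) * g) = w * ψ g := by
      first
      | exact hw g
      | (have := hw g; rw [Subgroup.mem_center_iff.1 (hN n.2) g] at this; exact this)
    rw [hmul, h2, map_mul]
    ring
  have hww : w * conj w = 1 := by
    have h3 : ψ 1 ≠ 0 := isIrr_apply_one_ne_zero hψ
    -- `w` is a root of unity
    have h4 : ∀ j : ℕ, ψ ((n : X) ^ j) = w ^ j * ψ 1 := by
      intro j
      induction j with
      | zero => simp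
      | succ j ih =>
        have h5 : ψ ((n : X) * (n : X) ^ j) = w * ψ ((n : X) ^ j) := by
          first
          | exact hw _
          | (have := hw ((n : X) ^ j)
             rw [Subgroup.mem_center_iff.1 (hN n.2)] at this; exact this)
        rw [pow_succ', h5, ih]
        ring
    have h5 := h4 (orderOf (n : X))
    rw [pow_orderOf_eq_one] at h5
    have h6 : w ^ orderOf (n : X) = 1 := by
      have : (w ^ orderOf (n : X) - 1) * ψ 1 = 0 := by linear_combination -h5
      rcases mul_eq_zero.1 this with h | h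
      · linear_combination h
      · exact absurd h h3
    have h7 : ‖w‖ = 1 := by
      have h8 : ‖w‖ ^ orderOf (n : X) = 1 := by rw [← norm_pow, h6, norm_one]
      exact (pow_eq_one_iff_of_nonneg (norm_nonneg _) (orderOf_pos _).ne').1 h8
    rw [Complex.mul_conj, Complex.normSq_eq_norm_sq, h7]
    norm_num
  have h2 : (1 - (φ n : ℂ) * conj w) * ∑ g : X, f g * conj (ψ g) = 0 := by
    linear_combination h1
  have h3 : (1 - (φ n : ℂ) * conj w) ≠ 0 := by
    intro h
    apply hwn
    have : (φ n : ℂ) * conj w = 1 := by linear_combination -h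
    have h5 : conj w ≠ 0 := by
      intro h0; rw [h0, mul_zero] at this; exact zero_ne_one this
    apply mul_right_cancel₀ h5
    rw [this, hww]
  rw [classInner_def, (mul_eq_zero.1 h2).resolve_left h3, mul_zero]

end generic

section part1

variable {G : Type u} [Group G] [Fintype G] {E : Subgroup G} (hE : E.Normal) (N : Subgroup E) (φ : N →* ℂˣ)

/-- conjugation on a normal subgroup -/
def cj (x : G) (g : E) : E := ⟨x⁻¹ * g * x, by
  have := hE.conj_mem g g.2 x⁻¹
  rwa [inv_inv] at this⟩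

theorem cj_mul (x : G) (a b : E) : cj hE x (a * b) = cj hE x a * cj hE x b := by
  apply Subtype.ext
  show x⁻¹ * ((a : G) * b) * x = (x⁻¹ * a * x) * (x⁻¹ * b * x)
  group

theorem cj_pow (x : G) (a : E) (m : ℕ) : cj hE x (a ^ m) = cj hE x a ^ m := by
  induction m with
  | zero =>
    apply Subtype.ext
    show x⁻¹ * ((a ^ 0 : E) : G) * x = ((cj hE x a ^ 0 : E) : G)
    rw [pow_zero, pow_zero, Subgroup.coe_one]
    group
  | succ m ih => rw [pow_succ, cj_mul, ih, pow_succ]

open Classical in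
/-- the function attached to `k` -/
noncomputable def sf (k g : E) : ℂ :=
  ∑ x : G, if h : cj hE x g * k⁻¹ ∈ N then ((φ ⟨_, h⟩ : ℂˣ) : ℂ) else 0

variable {N φ} {k : E}

theorem sf_conj (t : G) {g g' : E} (hg : (g' : G) = t * g * t⁻¹) : sf hE N φ k g' = sf hE N φ k g := by
  classical
  unfold sf
  refine Fintype.sum_equiv (Equiv.mulLeft t⁻¹) _ _ fun x => ?_
  have e : cj hE x g' = cj hE (t⁻¹ * x) g := by
    apply Subtype.ext
    show x⁻¹ * (g' : G) * x = (t⁻¹ * x)⁻¹ * g * (t⁻¹ * x)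
    rw [hg]
    group
  simp only [Equiv.coe_mulLeft, e]
  rfl

theorem sf_mul (hN : ∀ n : E, n ∈ N → (n : G) ∈ Subgroup.center G) (n : N) (g : E) :
    sf hE N φ k (n * g) = φ n * sf hE N φ k g := by
  classical
  unfold sf
  rw [Finset.mul_sum]
  refine Finset.sum_congr rfl fun x _ => ?_
  have hc : ∀ y : G, y * ((n : E) : G) = ((n : E) : G) * y := Subgroup.mem_center_iff.1 (hN n n.2)
  have e : cj hE x ((n : E) * g) * k⁻¹ = (n : E) * (cj hE x g * k⁻¹) := by
    apply Subtype.ext
    show x⁻¹ * (((n : E) : G) * g) * x * (k : G)⁻¹ = ((n : E) : G) * ((x⁻¹ * g * x) * (k : G)⁻¹)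
    rw [← mul_assoc x⁻¹, hc x⁻¹]
    group
  by_cases h : cj hE x g * k⁻¹ ∈ N
  · have h' : cj hE x ((n : E) * g) * k⁻¹ ∈ N := by rw [e]; exact N.mul_mem n.2 h
    rw [dif_pos h, dif_pos h']
    have e2 : (⟨_, h'⟩ : N) = n * ⟨_, h⟩ := Subtype.ext e
    rw [e2, map_mul, Units.val_mul]
  · have h' : ¬ cj hE x ((n : E) * g) * k⁻¹ ∈ N := by
      rw [e]
      intro h1
      exact h ((N.mul_mem_cancel_left n.2).1 h1)
    rw [dif_neg h, dif_neg h', mul_zero]

theorem sf_self_ne_zero (hk : ∀ x : G, cj hE x k * k⁻¹ ∈ N → cj hE x k = k) : sf hE N φ k k ≠ 0 := by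
  classical
  have h1 : sf hE N φ k k = ((Finset.univ.filter fun x : G => cj hE x k * k⁻¹ ∈ N).card : ℂ) := by
    unfold sf
    rw [Finset.card_filter]
    push_cast
    refine Finset.sum_congr rfl fun x _ => ?_
    by_cases h : cj hE x k * k⁻¹ ∈ N
    · rw [dif_pos h, if_pos h]
      have h3 := hk x h
      have h4 : (⟨_, h⟩ : N) = 1 := Subtype.ext (by
        show cj hE x k * k⁻¹ = 1
        rw [h3, mul_inv_cancel])
      rw [h4, map_one]
      rfl
    · rw [dif_neg h, if_neg h]
  rw [h1]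
  simp only [ne_eq, Nat.cast_eq_zero]
  apply Finset.card_ne_zero_of_mem (a := 1)
  simp only [Finset.mem_filter, Finset.mem_univ, true_and]
  have : cj hE 1 k * k⁻¹ = 1 := by
    apply Subtype.ext
    show (1 : G)⁻¹ * (k : G) * 1 * (k : G)⁻¹ = 1
    group
  rw [this]
  exact N.one_mem

theorem exists_of_sf_ne_zero {g : E} (h : sf hE N φ k g ≠ 0) : ∃ x : G, cj hE x g * k⁻¹ ∈ N := by
  classical
  obtain ⟨x, -, hx⟩ := Finset.exists_ne_zero_of_sum_ne_zero h
  by_cases h4 : cj hE x g * k⁻¹ ∈ N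
  · exact ⟨x, h4⟩
  · rw [dif_neg h4] at hx
    exact absurd rfl hx

theorem eq_of_coprime (hN : N ≤ Subgroup.center E) {g : E} (hk : (orderOf k).Coprime (Nat.card N))
    (hg : (orderOf g).Coprime (Nat.card N)) {x : G} (h : cj hE x g * k⁻¹ ∈ N) : cj hE x g = k := by
  set y := cj hE x g with hy
  set n : E := y * k⁻¹ with hn
  have hyn : y = n * k := by rw [hn, inv_mul_cancel_right]
  have hyg : y ^ orderOf g = 1 := by
    rw [hy, ← cj_pow, pow_orderOf_eq_one]
    apply Subtype.ext
    show x⁻¹ * (1 : G) * x = 1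
    group
  have hc : Commute n k := ((Subgroup.mem_center_iff.1 (hN h)) k).symm
  have h1 : n ^ (orderOf g * orderOf k) = 1 := by
    have h2 : y ^ (orderOf g * orderOf k) = 1 := by rw [pow_mul, hyg, one_pow]
    rw [hyn, hc.mul_pow, mul_comm (orderOf g), pow_mul k, pow_orderOf_eq_one, one_pow, mul_one] at h2
    rw [mul_comm]
    exact h2
  have h2 : orderOf n ∣ orderOf g * orderOf k := orderOf_dvd_of_pow_eq_one h1
  have h3 : orderOf n ∣ Nat.card N := by
    have : orderOf (⟨n, h⟩ : N) ∣ Nat.card N := orderOf_dvd_natCard _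
    rwa [← Subgroup.orderOf_coe] at this
  have h4 : orderOf n = 1 := Nat.eq_one_of_dvd_coprimes (Nat.Coprime.mul_left hg hk) h2 h3
  rw [orderOf_eq_one_iff] at h4
  rw [hyn, h4, one_mul]

end part1

/-- **Three orbits.** -/
theorem three_of_orders {G : Type u} [Group G] [Finite G] {E : Subgroup G} (hE : E.Normal) (N : Subgroup E) (φ : N →* ℂˣ)
    (hN : ∀ n : E, n ∈ N → (n : G) ∈ Subgroup.center G) (k : Fin 3 → E)
    (hco : ∀ i, (orderOf (k i)).Coprime (Nat.card N)) (hne : ∀ i j, i ≠ j → orderOf (k i) ≠ orderOf (k j)) :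
    ∃ ψ : Fin 3 → E → ℂ, (∀ i, IsIrrCharacter E (ψ i)) ∧ (∀ i, ∀ n : N, ψ i n = ψ i 1 * φ n) ∧
      ∀ i j, i ≠ j → ∀ g : G, ¬ ∀ (x y : E), (y : G) = g * x * g⁻¹ → ψ i y = ψ j x := by
  classical
  have := Fintype.ofFinite G
  have hNE : N ≤ Subgroup.center E := by
    intro n hn
    rw [Subgroup.mem_center_iff]
    intro g
    exact Subtype.ext (Subgroup.mem_center_iff.1 (hN n hn) g)
  -- the three functions
  let F : Fin 3 → E → ℂ := fun i => sf hE N φ (k i)
  have hFc : ∀ i (t : G) (g g' : E), (g' : G) = t * g * t⁻¹ → F i g' = F i g := fun i t g g' h => sf_conj hE t h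
  have hFm : ∀ i (n : N) (g : E), F i (n * g) = φ n * F i g := fun i n g => sf_mul hE hN n g
  have hF0 : ∀ i, F i (k i) ≠ 0 := fun i => sf_self_ne_zero hE fun x hx => eq_of_coprime hE hNE (hco i) (hco i) hx
  have hF1 : ∀ i j, i ≠ j → F i (k j) = 0 := by
    intro i j hij
    by_contra h
    obtain ⟨x, hx⟩ := exists_of_sf_ne_zero hE h
    have h1 := eq_of_coprime hE hNE (hco i) (hco j) hx
    apply hne i j hij
    have h2 : orderOf (cj hE x (k j)) = orderOf (k j) := by
      let c : E →* E := { toFun := cj hE x, map_one' := by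
                            apply Subtype.ext
                            show x⁻¹ * (1 : G) * x = 1
                            group
                          map_mul' := cj_mul hE x }
      have hc : Function.Injective c := by
        intro a b hab
        have h3 : x⁻¹ * (a : G) * x = x⁻¹ * (b : G) * x := congrArg Subtype.val hab
        apply Subtype.ext
        exact mul_left_cancel (mul_right_cancel h3)
      exact orderOf_injective c hc (k j)
    rw [← h2, h1]
  -- conjugacy of characters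
  let R : (E → ℂ) → (E → ℂ) → Prop := fun a b => ∃ g : G, ∀ x y : E, (y : G) = g * x * g⁻¹ → a y = b x
  have hRs : ∀ a b, R a b → R b a := by
    rintro a b ⟨g, hg⟩
    refine ⟨g⁻¹, fun x y hxy => ?_⟩
    symm
    apply hg
    rw [hxy]
    group
  have hRi : ∀ i a b, R a b → classInner (F i) a = classInner (F i) b := by
    rintro i a b ⟨g, hg⟩
    rw [classInner_def, classInner_def]
    congr 1
    symm
    refine Fintype.sum_equiv (MulAut.conjNormal (H := E) g).toEquiv _ _ fun x => ?_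
    have h1 : ((MulAut.conjNormal (H := E) g x : E) : G) = g * x * g⁻¹ := MulAut.conjNormal_apply g x
    show F i x * conj (b x) = F i (MulAut.conjNormal g x) * conj (a (MulAut.conjNormal g x))
    rw [hFc i g x _ h1, hg x _ h1]
  by_contra hcon
  -- two representatives
  have hO : ∀ ψ₀ ψ₁ ψ₂ : E → ℂ, IsIrrCharacter E ψ₀ → IsIrrCharacter E ψ₁ → IsIrrCharacter E ψ₂ →
      (∀ n : N, ψ₀ n = ψ₀ 1 * φ n) → (∀ n : N, ψ₁ n = ψ₁ 1 * φ n) → (∀ n : N, ψ₂ n = ψ₂ 1 * φ n) →
      R ψ₀ ψ₁ ∨ R ψ₀ ψ₂ ∨ R ψ₁ ψ₂ := by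
    intro ψ₀ ψ₁ ψ₂ h0 h1 h2 o0 o1 o2
    by_contra hno
    push Not at hno
    obtain ⟨n01, n02, n12⟩ := hno
    apply hcon
    refine ⟨![ψ₀, ψ₁, ψ₂], ?_, ?_, ?_⟩
    · intro i; fin_cases i
      · exact h0
      · exact h1
      · exact h2
    · intro i; fin_cases i
      · exact o0
      · exact o1
      · exact o2
    · intro i j hij g hg
      have hR : R (![ψ₀, ψ₁, ψ₂] i) (![ψ₀, ψ₁, ψ₂] j) := ⟨g, hg⟩
      fin_cases i <;> fin_cases j
      · exact hij rfl
      · exact n01 hR
      · exact n02 hR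
      · exact n01 (hRs _ _ hR)
      · exact hij rfl
      · exact n12 hR
      · exact n02 (hRs _ _ hR)
      · exact n12 (hRs _ _ hR)
      · exact hij rfl
  have hrep : ∃ ψ₀ ψ₁ : E → ℂ, ∀ ψ : E → ℂ, IsIrrCharacter E ψ → (∀ n : N, ψ n = ψ 1 * φ n) → R ψ₀ ψ ∨ R ψ₁ ψ := by
    by_cases hex : ∃ ψ₀ ψ₁ : E → ℂ, IsIrrCharacter E ψ₀ ∧ IsIrrCharacter E ψ₁ ∧ (∀ n : N, ψ₀ n = ψ₀ 1 * φ n) ∧
        (∀ n : N, ψ₁ n = ψ₁ 1 * φ n) ∧ ¬ R ψ₀ ψ₁
    · obtain ⟨ψ₀, ψ₁, h0, h1, o0, o1, h01⟩ := hex
      refine ⟨ψ₀, ψ₁, fun ψ hψ ho => ?_⟩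
      rcases hO ψ₀ ψ₁ ψ h0 h1 hψ o0 o1 ho with h | h | h
      · exact absurd h h01
      · exact Or.inl h
      · exact Or.inr h
    · push Not at hex
      by_cases hex2 : ∃ ψ₀ : E → ℂ, IsIrrCharacter E ψ₀ ∧ ∀ n : N, ψ₀ n = ψ₀ 1 * φ n
      · obtain ⟨ψ₀, h0, o0⟩ := hex2
        exact ⟨ψ₀, ψ₀, fun ψ hψ ho => Or.inl (hex ψ₀ ψ h0 hψ o0 ho)⟩
      · push Not at hex2
        refine ⟨0, 0, fun ψ hψ ho => ?_⟩
        obtain ⟨n, hn⟩ := hex2 ψ hψ
        exact absurd (ho n) hn
  obtain ⟨ψ₀, ψ₁, hrep⟩ := hrep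
  -- a linear relation
  let A : Matrix (Fin 2) (Fin 3) ℂ := fun j i => classInner (F i) (![ψ₀, ψ₁] j)
  have hker : LinearMap.ker A.mulVecLin ≠ ⊥ := by
    apply LinearMap.ker_ne_bot_of_finrank_lt
    simp
  obtain ⟨c, hc, hc0⟩ := (Submodule.ne_bot_iff _).1 hker
  have hc1 : ∀ j, ∑ i, classInner (F i) (![ψ₀, ψ₁] j) * c i = 0 := by
    intro j
    exact congrFun (LinearMap.mem_ker.1 hc) j
  apply hc0
  -- the relation between the functions
  have hzero : (∑ i, c i • F i) = 0 := by
    apply classFunction_eq_zero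
    · intro g h
      simp only [Finset.sum_apply, Pi.smul_apply]
      refine Finset.sum_congr rfl fun i _ => ?_
      rw [hFc i (h : G) g (h * g * h⁻¹) rfl]
    · intro ψ hψ
      rw [classInner_sum_left]
      by_cases ho : ∀ n : N, ψ n = ψ 1 * φ n
      · have h1 : ∀ j, R (![ψ₀, ψ₁] j) ψ → ∑ i, classInner (c i • F i) ψ = 0 := by
          intro j hj
          rw [← hc1 j]
          refine Finset.sum_congr rfl fun i _ => ?_
          rw [classInner_smul_left, hRi i _ _ hj, mul_comm]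
        rcases hrep ψ hψ ho with h | h
        · exact h1 0 h
        · exact h1 1 h
      · refine Finset.sum_eq_zero fun i _ => ?_
        rw [classInner_smul_left, inner_eq_zero hNE (hFm i) hψ ho, mul_zero]
  funext j
  have h1 := congrFun hzero (k j)
  rw [Finset.sum_apply, Finset.sum_eq_single j] at h1
  · rw [Pi.smul_apply, smul_eq_mul, Pi.zero_apply] at h1
    exact (mul_eq_zero.1 h1).resolve_right (hF0 j)
  · intro i _ hij
    rw [Pi.smul_apply, hF1 i j hij, smul_zero]
  · intro h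
    exact absurd (Finset.mem_univ _) h

end Cfsg.Agent.H548.RIM
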